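import Mathlib
import Cfsg.Agent.S1554
import Cfsg.Agent.Lib.Helper30.AutElemAb

set_option autoImplicit false

open Cfsg

namespace Cfsg.Agent.Lib.Helper30.A7GL

open Cfsg.Agent.Lib.Helper27 Cfsg.Agent.Lib.Helper30

theorem perm_apply_inv_self' {α : Type*} (f : Equiv.Perm α) (x : α) : f (f⁻¹ x) = x :=
  f.apply_symm_apply x

theorem card_GL4' : Nat.card (GL (Fin 4) (ZMod 2)) = 20160 := by
  rw [Matrix.card_GL_field, ZMod.card]
  simp [Fin.prod_univ_succ]

/-- the complement `A₈` of an octad stabiliser acts faithfully on the `2⁴`, so `A₈ ≅ GL₄(2)`. -/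
theorem nonempty_alt8_equiv_GL4 : Nonempty (alternatingGroup (Fin 8) ≃* GL (Fin 4) (ZMod 2)) := by
  have ho : unmask 8536111 ∈ octads := unmask_mem_octads (by decide +kernel) (by decide +kernel)
  have ho' : unmask 6889680 ∈ octads := unmask_mem_octads (by decide +kernel) (by decide +kernel)
  have hp : pt 4 ∉ unmask 8536111 := by decide +kernel
  have hp' : pt 8 ∉ unmask 6889680 := by decide +kernel
  have hp8 : pt 8 ∉ unmask 8536111 := by decide +kernel
  have hdisj : ∀ x ∈ unmask 6889680, x ∉ unmask 8536111 := by decide +kernel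
  set o := unmask 8536111 with hodef
  set p := pt 4 with hpdef
  obtain ⟨hAB, hsup, ⟨e⟩⟩ := Cfsg.Agent.S1554.result o ho p hp
  set A := octFix o with hA
  set B := octStab o ⊓ MulAction.stabilizer (Equiv.Perm GolayPt) p with hB
  have hfact : Fact (Nat.Prime 2) := ⟨Nat.prime_two⟩
  have h381 := Cfsg.Agent.S0381.result o ho
  -- the orbit of `p` under `A` is the complement of `o`
  set S : Set GolayPt := {y | ∃ a ∈ A, a p = y} with hS
  have hSsub : S ⊆ ((oᶜ : Finset GolayPt) : Set GolayPt) := by
    rintro _ ⟨a, ha, rfl⟩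
    have ha' := octFix_le_octStab o ha
    have : a p ∉ o := fun hc => hp ((mem_iff_of_smul_eq ha'.2 p).mp hc)
    simpa using this
  have hcard := card_step (G := Equiv.Perm GolayPt) A p S (fun y hy => hy)
    (fun a ha => ⟨a, ha, rfl⟩)
  have hbot : A ⊓ MulAction.stabilizer (Equiv.Perm GolayPt) p = ⊥ := by
    rw [eq_bot_iff]
    rintro a ⟨haA, hap⟩
    rw [Subgroup.mem_bot]
    have h1 := mem_octFix_iff.mp haA
    exact Cfsg.Agent.S1554.eq_one_of_fix ho hp h1.1 h1.2 hap
  rw [hbot, Subgroup.card_bot, mul_one, h381.1] at hcard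
  have hSeq : S = ((oᶜ : Finset GolayPt) : Set GolayPt) := by
    apply Set.eq_of_subset_of_ncard_le hSsub
    rw [← hcard, Set.ncard_coe_finset, Finset.card_compl, ho.2]
    decide
  obtain ⟨e2⟩ := nonempty_equiv_GL_of_conj A B 2 4
    (by
      intro b hb a ha
      have hb' : b ∈ octStab o := hb.1
      have ha' := mem_octFix_iff.mp ha
      refine mem_octFix_iff.mpr ⟨M24.mul_mem (M24.mul_mem hb'.1 ha'.1) (M24.inv_mem hb'.1), ?_⟩
      intro x hx
      have hx' : b⁻¹ x ∈ o := by
        have := (mem_iff_of_smul_eq hb'.2 (b⁻¹ x))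
        rw [perm_apply_inv_self'] at this
        exact this.mp hx
      change b (a (b⁻¹ x)) = x
      rw [ha'.2 _ hx', perm_apply_inv_self'])
    (by
      intro a ha a' ha'
      have h1 := h381.2 a ha
      have h2 := h381.2 a' ha'
      have h3 := h381.2 (a * a') (A.mul_mem ha ha')
      calc a * a' = a * (a * a' * (a * a')) * a' := by rw [h3, mul_one]
        _ = (a * a) * a' * a * (a' * a') := by group
        _ = a' * a := by rw [h1, h2, one_mul, mul_one])
    (by
      intro a ha
      rw [pow_two]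
      exact h381.2 a ha)
    (by rw [h381.1]; norm_num)
    (by
      intro b hb hcomm
      have hfixc : ∀ y, y ∉ o → b y = y := by
        intro y hy
        have hyS : y ∈ S := by
          rw [hSeq]
          simpa using hy
        obtain ⟨a, ha, rfl⟩ := hyS
        have h1 := congrArg (fun f : Equiv.Perm GolayPt => f p) (hcomm a ha)
        have h2 : b (a p) = a (b p) := h1
        have h3 : b p = p := hb.2
        rw [h2, h3]
      exact Cfsg.Agent.S1554.eq_one_of_fix ho' hp' hb.1.1 (fun x hx => hfixc x (hdisj x hx))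
        (hfixc _ hp8))
    (by rw [Cfsg.Agent.S1554.card_joint ho hp, card_GL4'])
  exact ⟨e.symm.trans e2⟩

end Cfsg.Agent.Lib.Helper30.A7GL
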